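import Cfsg.Agent.H865.L5.Base

/-!
# S5923 / S5924, section S (first part): facts on `SL₃(5)` (S2, S3, S4, S5, S7)
-/

set_option autoImplicit false
set_option linter.unusedSectionVars false

namespace Cfsg.Agent.H858.L5

open Subgroup Cfsg.Agent.H865.L5

/-- entries -/
theorem ext3 {g h : SL35} (e : ∀ i j, g.1 i j = h.1 i j) : g = h := Subtype.ext (Matrix.ext e)

theorem mul_apply3 (g h : SL35) (i j : Fin 3) :
    (g * h).1 i j = g.1 i 0 * h.1 0 j + g.1 i 1 * h.1 1 j + g.1 i 2 * h.1 2 j := by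
  show (g.1 * h.1) i j = _
  rw [Matrix.mul_apply, Fin.sum_univ_three]

theorem det3 (g : SL35) : g.1 0 0 * g.1 1 1 * g.1 2 2 - g.1 0 0 * g.1 1 2 * g.1 2 1 - g.1 0 1 * g.1 1 0 * g.1 2 2 +
    g.1 0 1 * g.1 1 2 * g.1 2 0 + g.1 0 2 * g.1 1 0 * g.1 2 1 - g.1 0 2 * g.1 1 1 * g.1 2 0 = 1 := by
  rw [← Matrix.det_fin_three]
  exact g.2

theorem us_mul (a b c a' b' c' : ZMod 5) : us a b c * us a' b' c' = us (a + a') (b + b' + a * c') (c + c') := by
  refine ext3 fun i j => ?_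
  rw [mul_apply3]
  fin_cases i <;> fin_cases j <;> simp [us] <;> ring

theorem us_zero : us 0 0 0 = 1 := by
  refine ext3 fun i j => ?_
  fin_cases i <;> fin_cases j <;> rfl

theorem us_inv (a b c : ZMod 5) : (us a b c)⁻¹ = us (-a) (a * c - b) (-c) := by
  rw [inv_eq_iff_mul_eq_one, us_mul, ← us_zero]
  congr 1 <;> ring

theorem us_inj {a b c a' b' c' : ZMod 5} : us a b c = us a' b' c' ↔ a = a' ∧ b = b' ∧ c = c' := by
  constructor
  · intro h
    have h1 : (us a b c).1 = (us a' b' c').1 := congrArg Subtype.val h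
    exact ⟨congrFun (congrFun h1 0) 1, congrFun (congrFun h1 0) 2, congrFun (congrFun h1 1) 2⟩
  · rintro ⟨rfl, rfl, rfl⟩
    rfl

theorem vp_eq (a b : ZMod 5) : vp a b = us a b 0 := rfl
theorem vl_eq (a b : ZMod 5) : vl a b = us 0 a b := rfl

theorem mem_US {g : SL35} : g ∈ US ↔ ∃ a b c, g = us a b c := Iff.rfl
theorem mem_VP {g : SL35} : g ∈ VP ↔ ∃ a b, g = us a b 0 := Iff.rfl
theorem mem_VL {g : SL35} : g ∈ VL ↔ ∃ a b, g = us 0 a b := Iff.rfl

/-! ### S2 -/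

/-- `US` as a subgroup -/
def uS : Subgroup SL35 where
  carrier := US
  one_mem' := ⟨0, 0, 0, us_zero.symm⟩
  mul_mem' := by
    rintro _ _ ⟨a, b, c, rfl⟩ ⟨a', b', c', rfl⟩
    exact ⟨_, _, _, us_mul _ _ _ _ _ _⟩
  inv_mem' := by
    rintro _ ⟨a, b, c, rfl⟩
    exact ⟨_, _, _, us_inv _ _ _⟩

/-- `VP` as a subgroup -/
def vP : Subgroup SL35 where
  carrier := VP
  one_mem' := ⟨0, 0, us_zero.symm⟩
  mul_mem' := by
    rintro _ _ ⟨a, b, rfl⟩ ⟨a', b', rfl⟩
    refine ⟨a + a', b + b', ?_⟩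
    rw [vp_eq, vp_eq, vp_eq, us_mul, us_inj]
    exact ⟨rfl, by ring, by ring⟩
  inv_mem' := by
    rintro _ ⟨a, b, rfl⟩
    refine ⟨-a, -b, ?_⟩
    rw [vp_eq, vp_eq, us_inv, us_inj]
    exact ⟨rfl, by ring, by ring⟩

/-- `VL` as a subgroup -/
def vL : Subgroup SL35 where
  carrier := VL
  one_mem' := ⟨0, 0, us_zero.symm⟩
  mul_mem' := by
    rintro _ _ ⟨a, b, rfl⟩ ⟨a', b', rfl⟩
    refine ⟨a + a', b + b', ?_⟩
    rw [vl_eq, vl_eq, vl_eq, us_mul, us_inj]
    exact ⟨by ring, by ring, rfl⟩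
  inv_mem' := by
    rintro _ ⟨a, b, rfl⟩
    refine ⟨-a, -b, ?_⟩
    rw [vl_eq, vl_eq, us_inv, us_inj]
    exact ⟨by ring, by ring, rfl⟩

theorem card_uS : Nat.card uS = 125 := by
  let f : ZMod 5 × ZMod 5 × ZMod 5 → uS := fun p => ⟨us p.1 p.2.1 p.2.2, ⟨_, _, _, rfl⟩⟩
  have hf : Function.Bijective f := by
    constructor
    · rintro ⟨a, b, c⟩ ⟨a', b', c'⟩ h
      have h1 := us_inj.1 (congrArg Subtype.val h)
      exact Prod.ext h1.1 (Prod.ext h1.2.1 h1.2.2)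
    · rintro ⟨_, a, b, c, rfl⟩
      exact ⟨(a, b, c), rfl⟩
  rw [← Nat.card_congr (Equiv.ofBijective f hf), Nat.card_prod, Nat.card_prod, Nat.card_zmod]

theorem card_vP : Nat.card vP = 25 := by
  let f : ZMod 5 × ZMod 5 → vP := fun p => ⟨vp p.1 p.2, ⟨_, _, rfl⟩⟩
  have hf : Function.Bijective f := by
    constructor
    · rintro ⟨a, b⟩ ⟨a', b'⟩ h
      have h1 := us_inj.1 (congrArg Subtype.val h)
      exact Prod.ext h1.1 h1.2.1
    · rintro ⟨_, a, b, rfl⟩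
      exact ⟨(a, b), rfl⟩
  rw [← Nat.card_congr (Equiv.ofBijective f hf), Nat.card_prod, Nat.card_zmod]

theorem card_vL : Nat.card vL = 25 := by
  let f : ZMod 5 × ZMod 5 → vL := fun p => ⟨vl p.1 p.2, ⟨_, _, rfl⟩⟩
  have hf : Function.Bijective f := by
    constructor
    · rintro ⟨a, b⟩ ⟨a', b'⟩ h
      have h1 := us_inj.1 (congrArg Subtype.val h)
      exact Prod.ext h1.2.1 h1.2.2
    · rintro ⟨_, a, b, rfl⟩
      exact ⟨(a, b), rfl⟩
  rw [← Nat.card_congr (Equiv.ofBijective f hf), Nat.card_prod, Nat.card_zmod]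

/-- S2 : `US`, `VP`, `VL` as subgroups -/
theorem exists_US : ∃ A : Subgroup SL35, (A : Set SL35) = US ∧ Nat.card A = 125 := ⟨uS, rfl, card_uS⟩
theorem exists_VP : ∃ A : Subgroup SL35, (A : Set SL35) = VP ∧ Nat.card A = 25 := ⟨vP, rfl, card_vP⟩
theorem exists_VL : ∃ A : Subgroup SL35, (A : Set SL35) = VL ∧ Nat.card A = 25 := ⟨vL, rfl, card_vL⟩

/-! ### S3 -/

theorem us_pow (a b c : ZMod 5) (n : ℕ) : ∃ b', us a b c ^ n = us (n * a) b' (n * c) := by
  induction n with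
  | zero =>
    refine ⟨0, ?_⟩
    rw [pow_zero, Nat.cast_zero, zero_mul, zero_mul, us_zero]
  | succ n ih =>
    obtain ⟨b', hb⟩ := ih
    refine ⟨b' + b + n * a * c, ?_⟩
    rw [pow_succ, hb, us_mul, us_inj]
    push_cast
    exact ⟨by ring, rfl, by ring⟩

theorem us_z_pow (b : ZMod 5) (n : ℕ) : us 0 b 0 ^ n = us 0 (n * b) 0 := by
  induction n with
  | zero => rw [pow_zero, Nat.cast_zero, zero_mul, us_zero]
  | succ n ih =>
    rw [pow_succ, ih, us_mul, us_inj]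
    push_cast
    exact ⟨by ring, by ring, by ring⟩

theorem exists_nat_mul {b : ZMod 5} (hb : b ≠ 0) (c : ZMod 5) : ∃ n : ℕ, (n : ZMod 5) * b = c := by
  refine ⟨(c * b⁻¹).val, ?_⟩
  rw [ZMod.natCast_zmod_val, mul_assoc, inv_mul_cancel₀ hb, mul_one]

/-- a subgroup of order 25 of `US` contains the center -/
theorem center_le (A : Subgroup SL35) (hA : (A : Set SL35) ⊆ US) (hc : Nat.card A = 25) (b : ZMod 5) :
    us 0 b 0 ∈ A := by
  by_cases h : ∃ b' : ZMod 5, b' ≠ 0 ∧ us 0 b' 0 ∈ A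
  · obtain ⟨b', hb', h⟩ := h
    obtain ⟨n, hn⟩ := exists_nat_mul hb' b
    rw [← hn, ← us_z_pow]
    exact pow_mem h n
  · exfalso
    push Not at h
    have hz : ∀ b', us 0 b' 0 ∈ A → b' = 0 := fun b' hb' => by
      by_contra h1
      exact h b' h1 hb'
    have hex : ∀ x : A, ∃ a b c, (x : SL35) = us a b c := fun x => hA x.2
    choose fa fb fc hf using hex
    let F : A → ZMod 5 × ZMod 5 := fun x => (fa x, fc x)
    have hinj : Function.Injective F := by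
      intro x y hxy
      have h1 : fa x = fa y := congrArg Prod.fst hxy
      have h2 : fc x = fc y := congrArg Prod.snd hxy
      have h3 : (x : SL35) * (y : SL35)⁻¹ ∈ A := mul_mem x.2 (inv_mem y.2)
      rw [hf x, hf y, us_inv, us_mul, h1, h2, add_neg_cancel, add_neg_cancel] at h3
      have h4 := hz _ h3
      apply Subtype.ext
      rw [hf x, hf y, us_inj]
      refine ⟨h1, ?_, h2⟩
      linear_combination h4
    have := Fintype.ofFinite A
    have hbij : Function.Bijective F := by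
      rw [Fintype.bijective_iff_injective_and_card]
      refine ⟨hinj, ?_⟩
      rw [← Nat.card_eq_fintype_card, hc]
      decide
    obtain ⟨x, hx⟩ := hbij.2 (1, 0)
    obtain ⟨y, hy⟩ := hbij.2 (0, 1)
    have h1 : fa x = 1 := congrArg Prod.fst hx
    have h2 : fc x = 0 := congrArg Prod.snd hx
    have h3 : fa y = 0 := congrArg Prod.fst hy
    have h4 : fc y = 1 := congrArg Prod.snd hy
    have h5 : (x : SL35) * y * (x : SL35)⁻¹ * (y : SL35)⁻¹ ∈ A :=
      mul_mem (mul_mem (mul_mem x.2 y.2) (inv_mem x.2)) (inv_mem y.2)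
    rw [hf x, hf y, h1, h2, h3, h4, us_inv, us_inv, us_mul, us_mul, us_mul] at h5
    have h6 : us (1 + 0 + -1 + -0) (fb x + fb y + 1 * 1 + (1 * 0 - fb x) + (1 + 0) * -0 + (0 * 1 - fb y) +
        (1 + 0 + -1) * -1) (0 + 1 + -0 + -1) = us 0 1 0 := by
      rw [us_inj]
      exact ⟨by ring, by ring, by ring⟩
    rw [h6] at h5
    exact absurd (hz _ h5) (by decide)

/-- the subgroup of order 25 through `us a _ c` -/
def ln (a c : ZMod 5) : Set SL35 := {g | ∃ k b, g = us (k * a) b (k * c)}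

theorem ncard_ln {a c : ZMod 5} (h : a ≠ 0 ∨ c ≠ 0) : (ln a c).ncard = 25 := by
  let f : ZMod 5 × ZMod 5 → SL35 := fun p => us (p.1 * a) p.2 (p.1 * c)
  have hf : Function.Injective f := by
    rintro ⟨k, b⟩ ⟨k', b'⟩ hh
    obtain ⟨h1, h2, h3⟩ := us_inj.1 hh
    refine Prod.ext ?_ h2
    rcases h with h | h
    · exact mul_right_cancel₀ h h1
    · exact mul_right_cancel₀ h h3
  have h1 : ln a c = Set.range f := by
    ext g
    constructor
    · rintro ⟨k, b, rfl⟩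
      exact ⟨(k, b), rfl⟩
    · rintro ⟨⟨k, b⟩, rfl⟩
      exact ⟨k, b, rfl⟩
  rw [h1, ← Nat.card_coe_set_eq, Nat.card_range_of_injective hf, Nat.card_prod, Nat.card_zmod]

theorem eq_ln (A : Subgroup SL35) (hA : (A : Set SL35) ⊆ US) (hc : Nat.card A = 25) :
    ∃ a c : ZMod 5, (a ≠ 0 ∨ c ≠ 0) ∧ (A : Set SL35) = ln a c := by
  have hz := center_le A hA hc
  have hex : ∃ a b c, (a ≠ 0 ∨ c ≠ 0) ∧ us a b c ∈ A := by
    by_contra h
    push Not at h
    have h1 : (A : Set SL35) ⊆ Set.range fun b : ZMod 5 => us 0 b 0 := by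
      intro g hg
      obtain ⟨a, b, c, rfl⟩ := hA hg
      by_cases h0 : a ≠ 0 ∨ c ≠ 0
      · exact absurd hg (h a b c h0)
      · push Not at h0
        obtain ⟨rfl, rfl⟩ := h0
        exact ⟨b, rfl⟩
    have h2 := Set.ncard_le_ncard h1 (Set.toFinite _)
    rw [← Nat.card_coe_set_eq, ← Nat.card_coe_set_eq] at h2
    have h3 : Nat.card (Set.range fun b : ZMod 5 => us 0 b 0) ≤ Nat.card (ZMod 5) :=
      Nat.card_le_card_of_surjective _ Set.rangeFactorization_surjective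
    rw [Nat.card_zmod] at h3
    have h4 : Nat.card ((A : Set SL35) : Type _) = 25 := hc
    omega
  obtain ⟨a, b, c, h0, hm⟩ := hex
  refine ⟨a, c, h0, ?_⟩
  symm
  refine Set.eq_of_subset_of_ncard_le ?_ ?_ (Set.toFinite _)
  · rintro g ⟨k, b', rfl⟩
    obtain ⟨b'', hb''⟩ := us_pow a b c k.val
    rw [ZMod.natCast_zmod_val] at hb''
    have h1 : us (k * a) b'' (k * c) ∈ A := by
      rw [← hb'']
      exact pow_mem hm _
    have h2 : us (k * a) b' (k * c) = us (k * a) b'' (k * c) * us 0 (b' - b'') 0 := by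
      rw [us_mul, us_inj]
      exact ⟨by ring, by ring, by ring⟩
    rw [h2]
    exact mul_mem h1 (hz _)
  · rw [ncard_ln h0, ← Nat.card_coe_set_eq]
    exact hc.le

/-- S3 : the subgroups of order 25 of `US` -/
theorem six (A : Subgroup SL35) (hA : (A : Set SL35) ⊆ US) (hc : Nat.card A = 25) :
    (A : Set SL35) = VP ∨ (A : Set SL35) = VL ∨ ∃ c : ZMod 5, c ≠ 0 ∧ (A : Set SL35) = {g | ∃ a b, g = us a b (c * a)} := by
  obtain ⟨a, c, h0, hA'⟩ := eq_ln A hA hc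
  rw [hA']
  by_cases hc0 : c = 0
  · left
    have ha : a ≠ 0 := h0.resolve_right fun h => h hc0
    subst hc0
    ext g
    constructor
    · rintro ⟨k, b, rfl⟩
      exact ⟨k * a, b, by rw [mul_zero]; rfl⟩
    · rintro ⟨x, y, rfl⟩
      refine ⟨x * a⁻¹, y, ?_⟩
      rw [vp_eq, mul_zero, mul_assoc, inv_mul_cancel₀ ha, mul_one]
  · right
    by_cases ha0 : a = 0
    · left
      subst ha0
      ext g
      constructor
      · rintro ⟨k, b, rfl⟩
        exact ⟨b, k * c, by rw [mul_zero]; rfl⟩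
      · rintro ⟨x, y, rfl⟩
        refine ⟨y * c⁻¹, x, ?_⟩
        rw [vl_eq, mul_zero, mul_assoc, inv_mul_cancel₀ hc0, mul_one]
    · right
      refine ⟨c * a⁻¹, mul_ne_zero hc0 (inv_ne_zero ha0), ?_⟩
      ext g
      constructor
      · rintro ⟨k, b, rfl⟩
        refine ⟨k * a, b, ?_⟩
        rw [us_inj]
        refine ⟨rfl, rfl, ?_⟩
        field_simp
      · rintro ⟨x, y, rfl⟩
        refine ⟨x * a⁻¹, y, ?_⟩
        rw [us_inj]
        refine ⟨?_, rfl, ?_⟩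
        · field_simp
        · field_simp

/-! ### S4 -/

theorem exists_st : ∀ c d : ZMod 5, c ≠ 0 → d ≠ 0 → ∃ s t : ZMod 5, t * s = 1 ∧ d = t ^ 3 * c := by decide

/-- `diag(1, t, s)` -/
def tst (s t : ZMod 5) (hst : t * s = 1) : SL35 := ⟨!![1, 0, 0; 0, t, 0; 0, 0, s], by
  rw [Matrix.det_fin_three]
  simp [hst]⟩

/-- S4 : the torus is transitive on the four others -/
theorem six_conj {c d : ZMod 5} (hc : c ≠ 0) (hd : d ≠ 0) : ∃ h : SL35, ∀ a b, ∃ a' b',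
    h * us a b (c * a) * h⁻¹ = us a' b' (d * a') := by
  obtain ⟨s, t, hst, rfl⟩ := exists_st c d hc hd
  refine ⟨tst s t hst, fun a b => ⟨s * a, t * b, ?_⟩⟩
  rw [mul_inv_eq_iff_eq_mul]
  refine ext3 fun i j => ?_
  rw [mul_apply3, mul_apply3]
  have h1 : a = s * a * t := by linear_combination (-a) * hst
  have h2 : b = t * b * s := by linear_combination (-b) * hst
  have h3 : t * (c * a) = t ^ 3 * c * (s * a) * s := by
    linear_combination (-(t * c * a) * (t * s + 1)) * hst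
  fin_cases i <;> fin_cases j <;> simp [us, tst] <;> assumption

/-! ### S5 -/

theorem cube_one : ∀ x : ZMod 5, x * x * x = 1 → x = 1 := by decide

/-- S5 : centralizers in `SL₃(5)` -/
theorem cent_VP {g : SL35} (h : ∀ s ∈ VP, g * s = s * g) : g ∈ VP := by
  have h1 := h (vp 1 0) ⟨1, 0, rfl⟩
  have h2 := h (vp 0 1) ⟨0, 1, rfl⟩
  have e1 : ∀ i j, (g * vp 1 0).1 i j = (vp 1 0 * g).1 i j := fun i j => by rw [h1]
  have e2 : ∀ i j, (g * vp 0 1).1 i j = (vp 0 1 * g).1 i j := fun i j => by rw [h2]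
  simp only [mul_apply3] at e1 e2
  have a00 := e1 0 0
  have a01 := e1 0 1
  have a02 := e1 0 2
  have a11 := e1 1 1
  have a21 := e1 2 1
  have b00 := e2 0 0
  have b01 := e2 0 1
  have b02 := e2 0 2
  simp [vp] at a00 a01 a02 a11 a21 b00 b01 b02
  have hd := det3 g
  have h00 : g.1 1 1 = g.1 0 0 := by linear_combination (-1 : ZMod 5) * a01
  have h22 : g.1 2 2 = g.1 0 0 := by linear_combination (-1 : ZMod 5) * b02
  rw [a11, a21, a02, b01, h00, h22] at hd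
  have hx : g.1 0 0 = 1 := cube_one _ (by linear_combination hd)
  refine ⟨g.1 0 1, g.1 0 2, ext3 fun i j => ?_⟩
  fin_cases i <;> fin_cases j <;> simp [vp, *]

theorem cent_US {g : SL35} (h : ∀ s ∈ US, g * s = s * g) : ∃ b, g = us 0 b 0 := by
  obtain ⟨a, b, rfl⟩ := cent_VP (g := g) fun s hs => by
    obtain ⟨a, b, rfl⟩ := hs
    exact h _ ⟨a, b, 0, rfl⟩
  refine ⟨b, ?_⟩
  have h1 := h (us 0 0 1) ⟨0, 0, 1, rfl⟩
  rw [vp_eq, us_mul, us_mul, us_inj] at h1
  have h2 := h1.2.1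
  have h3 : a = 0 := by linear_combination h2
  rw [vp_eq, h3]

/-! ### S7 -/

/-- S7 : the stabiliser of `p₀` normalises `VP` -/
theorem norm_VP {g : SL35} : (∀ s ∈ VP, g * s * g⁻¹ ∈ VP) ↔ g.1 1 0 = 0 ∧ g.1 2 0 = 0 := by
  constructor
  · intro h
    obtain ⟨a, b, hab⟩ := h (vp 1 0) ⟨1, 0, rfl⟩
    rw [mul_inv_eq_iff_eq_mul] at hab
    have e1 : ∀ i j, (g * vp 1 0).1 i j = (vp a b * g).1 i j := fun i j => by rw [hab]
    simp only [mul_apply3] at e1
    have a1 := e1 1 1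
    have a2 := e1 2 1
    simp [vp] at a1 a2
    exact ⟨a1, a2⟩
  · rintro ⟨h1, h2⟩ _ ⟨a, b, rfl⟩
    have hd := det3 g
    rw [h1, h2] at hd
    have hd' : g.1 0 0 * (g.1 1 1 * g.1 2 2 - g.1 1 2 * g.1 2 1) = 1 := by linear_combination hd
    refine ⟨g.1 0 0 ^ 2 * (a * g.1 2 2 - b * g.1 2 1), g.1 0 0 ^ 2 * (b * g.1 1 1 - a * g.1 1 2), ?_⟩
    rw [mul_inv_eq_iff_eq_mul]
    refine ext3 fun i j => ?_
    rw [mul_apply3, mul_apply3]
    fin_cases i <;> fin_cases j <;> simp [vp, h1, h2]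
    · linear_combination (-(g.1 0 0 * a)) * hd'
    · linear_combination (-(g.1 0 0 * b)) * hd'

theorem z0_VP (a b : ZMod 5) : z0 * vp a b * z0⁻¹ = vp a b ^ 2 := by
  rw [mul_inv_eq_iff_eq_mul, pow_two, vp_eq, us_mul]
  refine ext3 fun i j => ?_
  rw [mul_apply3, mul_apply3]
  fin_cases i <;> fin_cases j <;> simp [us, z0] <;> ring

theorem io_vp (a b : ZMod 5) : io (vp a b) = vm (-a) (-b) := by
  rw [io_apply, vp_eq, us_inv]
  refine ext3 fun i j => ?_
  change (us (-a) (a * 0 - b) (-0)).1 j i = (vm (-a) (-b)).1 i j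
  fin_cases i <;> fin_cases j <;> simp [us, vm]

theorem io_VP {g : SL35} : io g ∈ VM ↔ g ∈ VP := by
  constructor
  · rintro ⟨a, b, h⟩
    refine ⟨-a, -b, ?_⟩
    apply io.injective
    rw [h, io_vp, neg_neg, neg_neg]
  · rintro ⟨a, b, rfl⟩
    exact ⟨-a, -b, io_vp a b⟩

/-- a permutation matrix -/
def cyc : SL35 := ⟨!![0, 1, 0; 0, 0, 1; 1, 0, 0], by
  rw [Matrix.det_fin_three]
  decide⟩

theorem cyc_vm (a b : ZMod 5) : cyc * vm a b * cyc⁻¹ = vl a b := by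
  rw [mul_inv_eq_iff_eq_mul]
  refine ext3 fun i j => ?_
  rw [mul_apply3, mul_apply3]
  fin_cases i <;> fin_cases j <;> simp [cyc, vm, vl]

theorem exists_VM_VL : ∃ x : SL35, ∀ g, g ∈ VM ↔ x * g * x⁻¹ ∈ VL := by
  refine ⟨cyc, fun g => ⟨?_, ?_⟩⟩
  · rintro ⟨a, b, rfl⟩
    exact ⟨a, b, cyc_vm a b⟩
  · rintro ⟨a, b, h⟩
    refine ⟨a, b, ?_⟩
    rw [← cyc_vm] at h
    exact mul_left_cancel (mul_right_cancel h)

end Cfsg.Agent.H858.L5
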